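import Cfsg.Agent.H448.TwFC.Minus
import Cfsg.Agent.H424.EPX.Canon

/-!
# S5745, `²F₄(q)`: fusion in the torus, no subgroup `7 : 3` (helper371)

* `fus_T` : two elements of the torus which are conjugate in `G` are conjugate under the Weyl group;
* `pow_eight` : `n ^ 8` centralises the torus;
* `no_fus` : an element of prime order `p ∣ q - 1` is not conjugate to `x ^ i` if `i ^ 8 ≢ 1`;
* `no73` : in `²F₄(q)`, `q ≥ 8`, no element of order `7` is conjugate to its square.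
-/

set_option autoImplicit false
set_option linter.unusedSectionVars false

namespace Cfsg.Agent.H371.EPF

open Cfsg.Agent.KFacts.TwF4 Cfsg.Agent.KFacts.TwF4.Full
open Cfsg.Agent.SplitTwo Cfsg.Agent.SplitTwo.ZS Cfsg.Agent.TitsThree.RankTwoZ
open Cfsg.Agent.SplitTwo.RootSysZ Subgroup Cfsg.Lie

universe u

variable {F : Type*} [Field F] {σ : F →+* F} {G : Type u} [Group G] (S : Full σ G)

section

variable [Finite F] [Finite G] (hF : ∃ c : Fˣ, c ≠ 1) (hR : S.R.p = 2)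

include hF hR

/-- a 2-element of `B` lies in `U` -/
theorem mem_U_of {x : G} (hx : x ∈ J S.XZ 1 8 ⊔ S.T) (h2 : IsPGroup 2 (zpowers x)) : x ∈ J S.XZ 1 8 := by
  have hfact : Fact (Nat.Prime 2) := ⟨Nat.prime_two⟩
  have h3 : Subgroup.zpowers x ≤ normalizer (J S.XZ 1 8 : Set G) := by
    rw [Subgroup.zpowers_le, H424.EPX.norm_U' S hF hR]
    exact hx
  have h4 : IsPGroup 2 (J S.XZ 1 8 ⊔ Subgroup.zpowers x : Subgroup G) := by
    rw [sup_comm]
    exact h2.to_sup_of_normal_right' (H424.EPX.U_two S hF hR) h3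
  have h5 := H424.EPX.U_max' S hF hR le_sup_left h4
  rw [← h5]
  exact (le_sup_right : Subgroup.zpowers x ≤ _) (Subgroup.mem_zpowers x)

/-- **fusion in the torus** -/
theorem fus_T {t t' g : G} (ht : t ∈ S.T) (ht' : t' ∈ S.T) (h : g * t * g⁻¹ = t') :
    ∃ n w, w ∈ S.T ∧ S.IsDihE (w⁻¹ * n) ∧ n * t * n⁻¹ = t' := by
  obtain ⟨b, hb, t0, ht0, w, hw, b', hb', rfl⟩ := S.bruhatE g
  refine ⟨t0 * w, t0, ht0, by rwa [inv_mul_cancel_left], ?_⟩
  set n := t0 * w with hn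
  have hnT : n * t * n⁻¹ ∈ S.T := by
    obtain ⟨c, hc⟩ := hw
    have key : ∀ f : ZMod (2 * 8) → ZMod (2 * 8), (∀ k, f (f k) = k ∨ True) → Maps S.R.X w f →
        Maps S.R.X n f := by
      intro f _ hf
      exact (Maps.mul (S.T_iff.1 ht0) hf).congr fun _ => rfl
    rcases hc with hc | hc
    · have h1 := key _ (fun _ => Or.inr trivial) hc
      have h2 : Maps S.R.X n⁻¹ (fun k => ((2 * -c : ℤ) : ZMod (2 * 8)) + k) := h1.inv fun k => by push_cast; ring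
      refine S.T_iff.2 (((h1.mul (S.T_iff.1 ht)).mul h2).congr fun k => ?_)
      simp only [id, Function.comp]
      push_cast
      ring
    · have h1 := key _ (fun _ => Or.inr trivial) hc
      have h2 : Maps S.R.X n⁻¹ (fun k => ((2 * c : ℤ) : ZMod (2 * 8)) - k) := h1.inv fun k => by push_cast; ring
      refine S.T_iff.2 (((h1.mul (S.T_iff.1 ht)).mul h2).congr fun k => ?_)
      simp only [id, Function.comp]
      ring
  have e0 : b * t0 * w * b' = b * n * b' := by rw [hn]; group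
  rw [e0] at h
  -- `β t' = n v n⁻¹ (n t n⁻¹)`
  have e1 : n * (b' * (t * b'⁻¹ * t⁻¹)) * n⁻¹ = (b⁻¹ * (t' * b * t'⁻¹)) * (t' * (n * t * n⁻¹)⁻¹) := by
    have h1 : b * n * b' * t * (b * n * b')⁻¹ = t' := h
    have h2 : n * b' * t * b'⁻¹ * n⁻¹ = b⁻¹ * t' * b := by rw [← h1]; group
    have h3 : n * (b' * (t * b'⁻¹ * t⁻¹)) * n⁻¹ = (n * b' * t * b'⁻¹ * n⁻¹) * (n * t * n⁻¹)⁻¹ := by group
    rw [h3, h2]; group
  have hv : b' * (t * b'⁻¹ * t⁻¹) ∈ J S.XZ 1 8 := mul_mem hb' (S.T_conj_J ht (inv_mem hb'))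
  have hβ : b⁻¹ * (t' * b * t'⁻¹) ∈ J S.XZ 1 8 := mul_mem (inv_mem hb) (S.T_conj_J ht' hb)
  have hs : t' * (n * t * n⁻¹)⁻¹ ∈ S.T := mul_mem ht' (inv_mem hnT)
  have h2 : IsPGroup 2 (zpowers (n * (b' * (t * b'⁻¹ * t⁻¹)) * n⁻¹)) := by
    have h3 : IsPGroup 2 ((J S.XZ 1 8).map (MulAut.conj n).toMonoidHom) := (H424.EPX.U_two S hF hR).map _
    refine h3.to_le ?_
    rw [zpowers_le]
    exact ⟨_, hv, rfl⟩
  have h3 := mem_U_of S hF hR (x := n * (b' * (t * b'⁻¹ * t⁻¹)) * n⁻¹)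
    (by rw [e1]; exact mul_mem (mem_sup_left hβ) (mem_sup_right hs)) h2
  have h4 : t' * (n * t * n⁻¹)⁻¹ ∈ J S.XZ 1 8 := by
    have e2 : t' * (n * t * n⁻¹)⁻¹ = (b⁻¹ * (t' * b * t'⁻¹))⁻¹ * (n * (b' * (t * b'⁻¹ * t⁻¹)) * n⁻¹) := by
      rw [e1]; group
    rw [e2]
    exact mul_mem (inv_mem hβ) h3
  have h5 := S.U_inf_T hs h4
  exact (mul_inv_eq_one.1 h5).symm

end

/-- `n ^ 8` is in the torus -/
theorem pow_eight {n w : G} (hw : w ∈ S.T) (hn : S.IsDihE (w⁻¹ * n)) : n ^ 8 ∈ S.T := by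
  obtain ⟨c, hc⟩ := hn
  have key : ∀ f : ZMod (2 * 8) → ZMod (2 * 8), Maps S.R.X (w⁻¹ * n) f → Maps S.R.X n f := by
    intro f hf
    have h1 := (Maps.mul (S.T_iff.1 hw) hf).congr (g := f) fun _ => rfl
    rwa [mul_inv_cancel_left] at h1
  rcases hc with hc | hc
  · have h1 := key _ hc
    have h2 := h1.mul h1
    have h4 := h2.mul h2
    have h8 := h4.mul h4
    have e : n ^ 8 = n * n * (n * n) * (n * n * (n * n)) := by
      rw [show (8 : ℕ) = 2 * 2 * 2 by norm_num, pow_mul, pow_mul, pow_two n, pow_two (n * n), pow_two]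
    rw [e]
    refine S.T_iff.2 (h8.congr fun k => ?_)
    have h16 : (16 : ZMod (2 * 8)) = 0 := by decide
    simp only [id, Function.comp]
    push_cast
    linear_combination (c : ZMod (2 * 8)) * h16
  · have h1 := key _ hc
    have h2 := h1.mul h1
    have h3 : n * n ∈ S.T := S.T_iff.2 (h2.congr fun k => by simp only [id, Function.comp]; ring)
    have e : n ^ 8 = (n * n) ^ 4 := by rw [show (8 : ℕ) = 2 * 4 by norm_num, pow_mul, pow_two]
    rw [e]
    exact pow_mem h3 4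

section

variable [Finite F] [Finite G] (hF : ∃ c : Fˣ, c ≠ 1) (hR : S.R.p = 2)

include hF hR

/-- a torus element of order `p` is conjugate to `t ^ i` only if `i ^ 8 ≡ 1` modulo `p` -/
theorem pow_of_fus {t g : G} (ht : t ∈ S.T) {i : ℕ} (h : g * t * g⁻¹ = t ^ i) : t ^ i ^ 8 = t := by
  obtain ⟨n, w, hw, hn, h1⟩ := fus_T S hF hR ht (pow_mem ht i) h
  have h8 := pow_eight S hw hn
  have key : ∀ k : ℕ, n ^ k * t * (n ^ k)⁻¹ = t ^ i ^ k := by
    intro k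
    induction k with
    | zero => simp
    | succ k ih =>
      have e : n ^ (k + 1) * t * (n ^ (k + 1))⁻¹ = n * (n ^ k * t * (n ^ k)⁻¹) * n⁻¹ := by
        rw [pow_succ' n k, mul_inv_rev]; group
      rw [e, ih, ← conj_pow, h1, ← pow_mul, pow_succ' i k]
  have h2 := key 8
  rw [← h2, S.T_comm h8 ht, mul_inv_cancel_right]

end

/-- **In `²F₄(q)`, `q ≥ 8`, no element of order seven is conjugate to its square.** -/
theorem no73 {K : Type u} [Field K] [Fintype K] {m : ℕ} (hm : 1 ≤ m) (hK : Fintype.card K = 2 ^ (2 * m + 1))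
    (x g : ↥(twistedF4 K (2 ^ m))) (hx : orderOf x = 7) : g * x * g⁻¹ ≠ x ^ 2 := by
  intro hg
  obtain ⟨φ, hφ⟩ := Cfsg.Agent.ChevalleyStructure.TwF4.TwistedFix.exists_rln hK
  have := Cfsg.Agent.ChevalleyStructure.TwF4.Twisted.charP_two hK
  have hfin : Finite ↥(twistedF4 K (2 ^ m)) := inferInstance
  have hFc : Nat.card K = 2 ^ (2 * m + 1) := by rw [Nat.card_eq_fintype_card, hK]
  have h8 : 8 ≤ Nat.card K := by
    rw [hFc]
    calc 8 = 2 ^ 3 := by norm_num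
      _ ≤ _ := Nat.pow_le_pow_right (by norm_num) (by omega)
  obtain ⟨S, hR⟩ : ∃ S : Full φ ↥(twistedF4 K (2 ^ m)), S.R.p = 2 := ⟨Cfsg.Agent.KFacts.TwF4.Inst.full hK hφ, rfl⟩
  have hcard : Nat.card ↥(twistedF4 K (2 ^ m)) = Nat.card K ^ 12 * (Nat.card K - 1) * (Nat.card K ^ 3 + 1) *
      (Nat.card K ^ 4 - 1) * (Nat.card K ^ 6 + 1) := by
    rw [hFc]; exact Cfsg.Agent.S1068.result hK
  have h7 : 7 ∣ Nat.card K - 1 := by
    have h1 : 7 ∣ Nat.card ↥(twistedF4 K (2 ^ m)) := hx ▸ orderOf_dvd_natCard x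
    have h2 : (Nat.card K : ZMod 7) = 1 ∨ (Nat.card K : ZMod 7) = 2 ∨ (Nat.card K : ZMod 7) = 4 := by
      rw [hFc]
      push_cast
      have h3 : (2 : ZMod 7) ^ 3 = 1 := by decide
      have h4 : (2 : ZMod 7) ^ (2 * m + 1) = 2 ^ ((2 * m + 1) % 3) := by
        conv_lhs => rw [← Nat.div_add_mod (2 * m + 1) 3, pow_add, pow_mul, h3, one_pow, one_mul]
      rw [h4]
      have h5 := Nat.mod_lt (2 * m + 1) (show 3 > 0 by norm_num)
      generalize (2 * m + 1) % 3 = r at h5 ⊢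
      interval_cases r <;> decide
    have hq1 : 1 ≤ Nat.card K := by omega
    have hq4 : 1 ≤ Nat.card K ^ 4 := Nat.one_le_pow _ _ (by omega)
    rw [hcard, ← ZMod.natCast_eq_zero_iff] at h1
    rw [← ZMod.natCast_eq_zero_iff, Nat.cast_sub hq1]
    push_cast [Nat.cast_sub hq1, Nat.cast_sub hq4] at h1 ⊢
    rcases h2 with h2 | h2 | h2
    · rw [h2]; decide
    · rw [h2] at h1
      exact absurd h1 (by decide)
    · rw [h2] at h1
      exact absurd h1 (by decide)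
  have hF : ∃ c : Kˣ, c ≠ 1 := by
    have h1 : 1 < Nat.card Kˣ := by
      rw [Nat.card_units]
      omega
    have h2 : Nontrivial Kˣ := Finite.one_lt_card_iff_nontrivial.1 h1
    exact exists_ne 1
  obtain ⟨c, hc⟩ := H448.TwFC.exists_conj_T S (by omega) hcard (by norm_num : Nat.Prime 7) (by norm_num) h7 hx
  have h1 : (c⁻¹ * g * c) * (c⁻¹ * x * c) * (c⁻¹ * g * c)⁻¹ = (c⁻¹ * x * c) ^ 2 := by
    have e : (c⁻¹ * g * c) * (c⁻¹ * x * c) * (c⁻¹ * g * c)⁻¹ = c⁻¹ * (g * x * g⁻¹) * c := by group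
    rw [e, hg, pow_two, pow_two]; group
  have h2 := pow_of_fus S hF hR hc h1
  have ho : orderOf (c⁻¹ * x * c) = 7 := by
    rw [← hx]
    have := (MulAut.conj c⁻¹).orderOf_eq x
    simpa using this
  have h3 : (c⁻¹ * x * c) ^ 7 = 1 := by rw [← ho]; exact pow_orderOf_eq_one _
  have h4 : (c⁻¹ * x * c) ^ 3 = 1 := by
    have e : (c⁻¹ * x * c) ^ 2 ^ 8 = (c⁻¹ * x * c) * (c⁻¹ * x * c) ^ 3 := by
      have e1 : (2 : ℕ) ^ 8 = 7 * 36 + 4 := by norm_num
      rw [e1, pow_add, pow_mul, h3, one_pow, one_mul, ← pow_succ']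
    rw [e] at h2
    exact mul_eq_left.1 h2
  have h5 := orderOf_dvd_of_pow_eq_one h4
  rw [ho] at h5
  omega

end Cfsg.Agent.H371.EPF
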